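import Mathlib
import Cfsg.Prelude.Def_Solvable

/-!
Groups with a nontrivial partition: normal refinement, commuting elements.
-/

set_option autoImplicit false

namespace Cfsg.Agent.Ptn

variable {G : Type*} [Group G]

/-- a conjugation invariant nontrivial partition: `X g` is the component of `g` -/
structure NP (X : G → Subgroup G) : Prop where
  mem : ∀ g, g ∈ X g
  eq : ∀ {g y : G}, g ≠ 1 → y ∈ X g → y ≠ 1 → X y = X g
  ne_top : ∀ {g : G}, g ≠ 1 → X g ≠ ⊤
  conj : ∀ {g y : G} (h : G), g ≠ 1 → y ∈ X g → h * y * h⁻¹ ∈ X (h * g * h⁻¹)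

/-- the component of an element -/
noncomputable def cp (S : Set (Subgroup G)) (hpart : ∀ g : G, g ≠ 1 → ∃! H : Subgroup G, H ∈ S ∧ g ∈ H) (g : G) :
    Subgroup G := by
  classical
  exact if h : g ≠ 1 then Classical.choose (hpart g h).exists else ⊥

section

variable {S : Set (Subgroup G)} {hpart : ∀ g : G, g ≠ 1 → ∃! H : Subgroup G, H ∈ S ∧ g ∈ H}

theorem cp_spec {g : G} (h : g ≠ 1) : cp S hpart g ∈ S ∧ g ∈ cp S hpart g := by
  rw [cp, dif_pos h]
  exact Classical.choose_spec (hpart g h).exists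

theorem cp_one : cp S hpart 1 = ⊥ := by
  rw [cp, dif_neg (by simp)]

theorem cp_unique {g : G} (h : g ≠ 1) {A : Subgroup G} (hA : A ∈ S) (hg : g ∈ A) : cp S hpart g = A :=
  (hpart g h).unique (cp_spec h) ⟨hA, hg⟩

theorem cp_eq {g y : G} (hg : g ≠ 1) (hy : y ≠ 1) (h : y ∈ cp S hpart g) : cp S hpart y = cp S hpart g :=
  cp_unique hy (cp_spec hg).1 h

/-- the normal refinement -/
noncomputable def XX (S : Set (Subgroup G)) (hpart : ∀ g : G, g ≠ 1 → ∃! H : Subgroup G, H ∈ S ∧ g ∈ H) (g : G) :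
    Subgroup G :=
  ⨅ h : G, (cp S hpart (h * g * h⁻¹)).comap (MulAut.conj h).toMonoidHom

theorem mem_XX {g y : G} : y ∈ XX S hpart g ↔ ∀ h : G, h * y * h⁻¹ ∈ cp S hpart (h * g * h⁻¹) := by
  rw [XX, Subgroup.mem_iInf]
  rfl

theorem cj_ne {g h : G} (hg : g ≠ 1) : h * g * h⁻¹ ≠ 1 := by
  intro e
  apply hg
  have : g = h⁻¹ * (h * g * h⁻¹) * h := by group
  rw [this, e]; group

theorem np_XX (hS2 : ∃ H ∈ S, ∃ K ∈ S, H ≠ K) (hS1 : ∀ H ∈ S, H ≠ ⊥) : NP (XX S hpart) where
  mem g := by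
    rw [mem_XX]
    intro h
    by_cases hg : g = 1
    · subst hg; simp
    · exact (cp_spec (cj_ne hg)).2
  eq := by
    intro g y hg hy hy1
    have h1 : ∀ h : G, cp S hpart (h * y * h⁻¹) = cp S hpart (h * g * h⁻¹) := fun h =>
      cp_eq (cj_ne hg) (cj_ne hy1) (mem_XX.1 hy h)
    unfold XX
    simp only [h1]
  ne_top := by
    intro g hg htop
    obtain ⟨H, hH, K, hK, hne⟩ := hS2
    have h1 : cp S hpart g = ⊤ := by
      rw [Subgroup.eq_top_iff']
      intro y
      have := mem_XX.1 (htop ▸ Subgroup.mem_top y : y ∈ XX S hpart g) 1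
      simpa using this
    have h2 : (⊤ : Subgroup G) ∈ S := h1 ▸ (cp_spec hg).1
    have h3 : ∀ A ∈ S, A = ⊤ := by
      intro A hA
      obtain ⟨a, ha, ha1'⟩ := (Subgroup.bot_or_exists_ne_one A).resolve_left (hS1 A hA)
      rw [← cp_unique (hpart := hpart) ha1' hA ha, cp_unique (hpart := hpart) ha1' h2 (Subgroup.mem_top _)]
    exact hne ((h3 H hH).trans (h3 K hK).symm)
  conj := by
    intro g y h hg hy
    rw [mem_XX] at hy ⊢
    intro h'
    have := hy (h' * h)
    have e1 : h' * h * y * (h' * h)⁻¹ = h' * (h * y * h⁻¹) * h'⁻¹ := by group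
    have e2 : h' * h * g * (h' * h)⁻¹ = h' * (h * g * h⁻¹) * h'⁻¹ := by group
    rwa [e1, e2] at this

end

namespace NP

variable {X : G → Subgroup G} (h : NP X)
include h

theorem eq_of_mem {g g' y : G} (hg : g ≠ 1) (hg' : g' ≠ 1) (hy : y ≠ 1) (h1 : y ∈ X g) (h2 : y ∈ X g') :
    X g = X g' := (h.eq hg h1 hy).symm.trans (h.eq hg' h2 hy)

theorem mem_symm {g y : G} (hg : g ≠ 1) (hy : y ≠ 1) (h1 : y ∈ X g) : g ∈ X y := by
  rw [h.eq hg h1 hy]; exact h.mem g

theorem mem_congr {g y x : G} (hg : g ≠ 1) (hy : y ≠ 1) (h1 : y ∈ X g) : x ∈ X y ↔ x ∈ X g := by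
  rw [h.eq hg h1 hy]

/-- an element conjugating a nontrivial element of a component into the component normalizes it -/
theorem norm_of {g y k : G} (hg : g ≠ 1) (hy : y ∈ X g) (hy1 : y ≠ 1) (hk : k * y * k⁻¹ ∈ X g) {x : G}
    (hx : x ∈ X g) : k * x * k⁻¹ ∈ X g := by
  have h1 := h.conj k hg hy
  have h2 : X (k * g * k⁻¹) = X g := h.eq_of_mem (cj_ne hg) hg (cj_ne hy1) h1 hk
  rw [← h2]
  exact h.conj k hg hx

theorem norm_of_comm {g y k : G} (hg : g ≠ 1) (hy : y ∈ X g) (hy1 : y ≠ 1) (hk : k * y = y * k) {x : G}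
    (hx : x ∈ X g) : k * x * k⁻¹ ∈ X g := by
  refine h.norm_of hg hy hy1 ?_ hx
  rw [hk]; simpa using hy

omit h in
theorem mem_normalizer [Finite G] {g k : G} : k ∈ Subgroup.normalizer (X g : Set G) ↔ ∀ x ∈ X g, k * x * k⁻¹ ∈ X g := by
  constructor
  · intro hk x hx
    exact (Subgroup.mem_normalizer_iff.1 hk x).1 hx
  · intro hk
    have h1 : (X g).map (MulAut.conj k).toMonoidHom ≤ X g := by
      rintro _ ⟨x, hx, rfl⟩
      exact hk x hx
    have h2 : (X g).map (MulAut.conj k).toMonoidHom = X g := by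
      apply Subgroup.eq_of_le_of_card_ge h1
      rw [Subgroup.card_map_of_injective (MulAut.conj k).injective]
    rw [Subgroup.mem_normalizer_iff]
    intro x
    constructor
    · exact hk x
    · intro hx
      rw [← SetLike.mem_coe, ← h2] at hx
      obtain ⟨y, hy, hyx⟩ := hx
      have : y = x := (MulAut.conj k).injective hyx
      rwa [← this]

/-- commuting elements in different components have the same prime order -/
theorem comm [Finite G] {x y : G} (hx : x ≠ 1) (hy : y ≠ 1) (hxy : x * y = y * x) (hne : y ∉ X x) :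
    (orderOf x).Prime ∧ orderOf y = orderOf x := by
  -- general equality of orders
  have key : ∀ x y : G, x ≠ 1 → y ≠ 1 → x * y = y * x → y ∉ X x → ∀ n : ℕ, x ^ n = 1 → y ^ n = 1 := by
    intro x y hx hy hxy hne n hn
    by_contra hyn
    have h1 : x * y ≠ 1 := by
      intro e
      apply hne
      have : y = x⁻¹ := (inv_eq_of_mul_eq_one_right e).symm
      rw [this]; exact inv_mem (h.mem x)
    have h2 : (x * y) ^ n = y ^ n := by
      rw [(show Commute x y from hxy).mul_pow, hn, one_mul]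
    have h3 : y ^ n ∈ X (x * y) := h2 ▸ pow_mem (h.mem _) n
    have h4 : y ^ n ∈ X y := pow_mem (h.mem _) n
    have h5 : X (x * y) = X y := h.eq_of_mem h1 hy hyn h3 h4
    have h6 : x * y ∈ X y := h5 ▸ h.mem _
    have h7 : x ∈ X y := by
      have := mul_mem h6 (inv_mem (h.mem y))
      simpa using this
    exact hne (h.mem_symm hy hx h7)
  have key2 : ∀ x y : G, x ≠ 1 → y ≠ 1 → x * y = y * x → y ∉ X x → orderOf y = orderOf x := by
    intro x y hx hy hxy hne
    apply Nat.dvd_antisymm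
    · exact orderOf_dvd_of_pow_eq_one (key x y hx hy hxy hne _ (pow_orderOf_eq_one x))
    · refine orderOf_dvd_of_pow_eq_one (key y x hy hx hxy.symm ?_ _ (pow_orderOf_eq_one y))
      intro hc
      exact hne (h.mem_symm hy hx hc)
  refine ⟨?_, key2 x y hx hy hxy hne⟩
  have hn1 : orderOf x ≠ 1 := by rw [Ne, orderOf_eq_one_iff]; exact hx
  obtain ⟨p, hp, hpd⟩ := Nat.exists_prime_and_dvd hn1
  -- x ^ (n / p)
  have hpos := orderOf_pos x
  obtain ⟨m, hm⟩ := hpd
  have hm0 : m ≠ 0 := by rintro rfl; rw [mul_zero] at hm; omega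
  have h1 : orderOf (x ^ m) = p := by
    rw [orderOf_pow_of_dvd hm0 ⟨p, by rw [hm, mul_comm]⟩, hm, Nat.mul_div_cancel _ (Nat.pos_of_ne_zero hm0)]
  have h2 : x ^ m ≠ 1 := by
    intro e; rw [e, orderOf_one] at h1; exact hp.ne_one h1.symm
  have h3 : X (x ^ m) = X x := h.eq hx (pow_mem (h.mem x) m) h2
  have h4 := key2 (x ^ m) y h2 hy ((show Commute x y from hxy).pow_left m) (by rw [h3]; exact hne)
  have h5 := key2 x y hx hy hxy hne
  rw [← h5, h4, h1]
  exact hp

theorem mem_of_comm [Finite G] {x y : G} (hx : x ≠ 1) (hy : y ≠ 1) (hxy : x * y = y * x)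
    (ho : orderOf y ≠ orderOf x) : y ∈ X x := by
  by_contra hc
  exact ho (h.comm hx hy hxy hc).2

theorem mem_of_comm_pow [Finite G] {x y : G} {p : ℕ} (hp : p.Prime) (hx : x ^ p = 1) (hx1 : x ≠ 1) (hy : y ^ p ≠ 1)
    (hxy : x * y = y * x) : y ∈ X x := by
  refine h.mem_of_comm hx1 (by rintro rfl; simp at hy) hxy ?_
  intro e
  apply hy
  rw [orderOf_eq_prime (p := p) (hp := ⟨hp⟩) hx hx1] at e
  rw [← e]; exact pow_orderOf_eq_one y

end NP

end Cfsg.Agent.Ptn
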